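import Mathlib
import Cfsg.Prelude.Def_Transfer
import Cfsg.Agent.Lib.Helper1.Coprime
import Cfsg.Agent.Lib.Helper1.SZQuot
import Cfsg.Agent.Lib.Helper1.Transfer1
import Cfsg.Agent.Lib.Helper1.Frobenius
import Cfsg.Agent.Lib.Helper1.RankFrattini

set_option autoImplicit false

namespace Cfsg.Agent.Lib.Helper1.PNilFrat

open Cfsg
open Cfsg.Agent.Lib.Helper1
open scoped Pointwise

theorem mem_of_pow_mem_coprime {G : Type*} [Group G] (H : Subgroup G) (x : G) {a b : ℕ} (hab : a.Coprime b)
    (ha : x ^ a ∈ H) (hb : x ^ b ∈ H) : x ∈ H := by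
  have h1 : (1 : ℤ) = a * Nat.gcdA a b + b * Nat.gcdB a b := by
    have := Nat.gcd_eq_gcd_ab a b
    rw [hab] at this
    exact_mod_cast this
  have h2 : x = (x ^ a) ^ (Nat.gcdA a b) * (x ^ b) ^ (Nat.gcdB a b) := by
    rw [← zpow_natCast, ← zpow_natCast, ← zpow_mul, ← zpow_mul, ← zpow_add, ← h1, zpow_one]
  rw [h2]
  exact H.mul_mem (H.zpow_mem ha _) (H.zpow_mem hb _)

theorem main {G : Type*} [Group G] [Finite G] {p : ℕ} [hp : Fact p.Prime] (P : Sylow p G) (Q : Subgroup G) [hQn : Q.Normal]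
    (hQP : Q ≤ (P : Subgroup G)) (hab : ∀ a ∈ (P : Subgroup G), ∀ b ∈ (P : Subgroup G), a * b * a⁻¹ * b⁻¹ ∈ Q)
    (hfr : ∀ H : Subgroup G, H ≤ (P : Subgroup G) → Q ⊔ H = (P : Subgroup G) → H = (P : Subgroup G))
    (hc : ∀ g ∈ Subgroup.normalizer ((P : Subgroup G) : Set G), (orderOf g).Coprime p →
      g ∈ Subgroup.centralizer ((P : Subgroup G) : Set G)) :
    Cfsg.HasNormalPComplement p G := by
  have hpp := hp.out
  set f := QuotientGroup.mk' Q with hf
  have hfs : Function.Surjective f := QuotientGroup.mk'_surjective Q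
  have hf1 : ∀ x, f x = 1 ↔ x ∈ Q := fun x => QuotientGroup.eq_one_iff x
  have hmem : ∀ x, f x ∈ (P : Subgroup G).map f ↔ x ∈ (P : Subgroup G) := by
    intro x
    constructor
    · rintro ⟨y, hy, hyx⟩
      have h1 : f (y⁻¹ * x) = 1 := by rw [map_mul, map_inv, hyx, inv_mul_cancel]
      have h2 := hQP ((hf1 _).mp h1)
      have := (P : Subgroup G).mul_mem hy h2
      rwa [mul_inv_cancel_left] at this
    · intro hx; exact ⟨x, hx, rfl⟩
  -- step 1
  let Pb : Sylow p (G ⧸ Q) := P.mapSurjective hfs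
  have hPb : (Pb : Subgroup (G ⧸ Q)) = (P : Subgroup G).map f := Sylow.coe_mapSurjective hfs P
  have hNC : Subgroup.normalizer ((Pb : Subgroup (G ⧸ Q)) : Set (G ⧸ Q)) ≤ Subgroup.centralizer ((Pb : Subgroup (G ⧸ Q)) : Set (G ⧸ Q)) := by
    intro gb hgb
    obtain ⟨g, rfl⟩ := hfs gb
    have hgN : g ∈ Subgroup.normalizer ((P : Subgroup G) : Set G) := by
      rw [Subgroup.mem_normalizer_iff]
      intro x
      have := Subgroup.mem_normalizer_iff.mp hgb (f x)
      rw [hPb, ← map_inv, ← map_mul, ← map_mul, hmem, hmem] at this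
      exact this
    rw [Subgroup.mem_centralizer_iff]
    intro yb hyb
    rw [SetLike.mem_coe, hPb] at hyb
    obtain ⟨y, hy, rfl⟩ := hyb
    have hgoal : f g ∈ Subgroup.centralizer ({f y} : Set (G ⧸ Q)) := by
      obtain ⟨a, m, hm, ho⟩ := Nat.exists_eq_pow_mul_and_not_dvd (orderOf_pos g).ne' p hpp.ne_one
      have hcop : (p ^ a).Coprime m := Nat.Coprime.pow_left a ((Nat.Prime.coprime_iff_not_dvd hpp).mpr hm)
      apply mem_of_pow_mem_coprime _ _ hcop
      · -- g ^ (p^a) is a p'-element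
        have h1 : orderOf (g ^ (p ^ a)) = m := by
          rw [orderOf_pow_of_dvd (pow_ne_zero a hpp.ne_zero) (ho ▸ Dvd.intro _ rfl), ho,
            Nat.mul_div_cancel_left _ (pow_pos hpp.pos a)]
        have h2 := hc _ (Subgroup.pow_mem _ hgN _) (by
          rw [h1]; exact ((Nat.Prime.coprime_iff_not_dvd hpp).mpr hm).symm)
        have h3 := Subgroup.mem_centralizer_iff.mp h2 y hy
        rw [Subgroup.mem_centralizer_singleton_iff, ← map_pow, ← map_mul, ← map_mul, h3]
      · -- g ^ m is a p-element, hence in P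
        have h1 : (g ^ m) ^ (p ^ a) = 1 := by
          rw [← pow_mul, mul_comm, ← ho, pow_orderOf_eq_one]
        have h2 : IsPGroup p (Subgroup.zpowers (g ^ m)) := by
          obtain ⟨j, -, hj⟩ := (Nat.dvd_prime_pow hpp).mp (orderOf_dvd_of_pow_eq_one h1)
          apply IsPGroup.of_card (n := j)
          rw [Nat.card_zpowers, hj]
        have h3 : g ^ m ∈ (P : Subgroup G) :=
          pgroup_le_sylow_of_le_normalizer P h2 (Subgroup.zpowers_le.mpr (Subgroup.pow_mem _ hgN _))
            (Subgroup.mem_zpowers _)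
        have h4 := hab _ h3 y hy
        rw [Subgroup.mem_centralizer_singleton_iff, ← map_pow, ← map_mul, ← map_mul]
        have h5 := (hf1 _).mpr h4
        rw [map_mul, map_mul, map_inv, map_inv, mul_inv_eq_one, mul_inv_eq_iff_eq_mul, ← map_mul] at h5
        exact h5
    exact (Subgroup.mem_centralizer_singleton_iff.mp hgoal).symm
  have hcompl := MonoidHom.ker_transferSylow_isComplement' Pb hNC
  have hpnb : Cfsg.HasNormalPComplement p (G ⧸ Q) := ⟨Pb, _, inferInstance, hcompl⟩
  rw [hasNormalPComplement_iff] at hpnb ⊢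
  -- step 2
  haveI hRn := pResidual_normal (G := G) p
  set R := pResidual p G with hR
  have hRf : R.map f ≤ pResidual p (G ⧸ Q) := by
    rw [hR, pResidual, MonoidHom.map_closure, Subgroup.closure_le]
    rintro _ ⟨g, hg, rfl⟩
    apply mem_pResidual_of_coprime
    exact Nat.Coprime.coprime_dvd_left (orderOf_map_dvd _ g) hg
  set M := R ⊔ Q with hM
  haveI hMn : M.Normal := Subgroup.sup_normal R Q
  have hQM : Q ≤ M := le_sup_right
  have hQp : IsPGroup p Q := P.2.to_le hQP
  obtain ⟨e, he⟩ := IsPGroup.iff_card.mp hQp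
  have hidx : ((Q.subgroupOf M).index).Coprime p := by
    have h1 : (f.comp M.subtype).ker = Q.subgroupOf M := by
      ext x
      rw [MonoidHom.mem_ker, Subgroup.mem_subgroupOf]
      exact hf1 x.1
    have h2 : (f.comp M.subtype).range = M.map f := by
      rw [MonoidHom.range_eq_map, ← Subgroup.map_map, ← MonoidHom.range_eq_map, Subgroup.range_subtype]
    have h3 : M.map f = R.map f := by
      rw [hM, Subgroup.map_sup]
      have : Q.map f = ⊥ := by
        rw [eq_bot_iff]
        rintro _ ⟨q, hq, rfl⟩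
        exact (hf1 q).mpr hq
      rw [this, sup_bot_eq]
    rw [← h1, Subgroup.index_ker, h2, h3]
    exact Nat.Coprime.coprime_dvd_left (Subgroup.card_dvd_of_le hRf) hpnb
  haveI : (Q.subgroupOf M).Normal := hQn.subgroupOf M
  have hQMc : Nat.card (Q.subgroupOf M) = p ^ e := by rw [card_subgroupOf hQM, he]
  obtain ⟨K', hK'⟩ := Subgroup.exists_right_complement'_of_coprime (N := Q.subgroupOf M)
    (by rw [hQMc]; exact Nat.Coprime.pow_left e hidx.symm)
  set K := K'.map M.subtype with hK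
  have hKM : K ≤ M := Subgroup.map_subtype_le _
  have hKc : Nat.card K = (Q.subgroupOf M).index := by
    rw [hK, Subgroup.card_map_of_injective M.subtype_injective]
    have h1 := hK'.card_mul_card
    have h2 := (Q.subgroupOf M).card_mul_index
    exact Nat.eq_of_mul_eq_mul_left Nat.card_pos (h1.trans h2.symm)
  have hKp : (Nat.card K).Coprime p := hKc ▸ hidx
  have hKQcop : (Nat.card K).Coprime (Nat.card Q) := by rw [he]; exact Nat.Coprime.pow_right e hKp
  have hKNQ : K ≤ Subgroup.normalizer (Q : Set G) := by rw [Subgroup.normalizer_eq_top]; exact le_top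
  have hKQ : K ⊔ Q = M := by
    apply Subgroup.eq_of_le_of_card_ge (sup_le hKM hQM)
    rw [card_sup_of_coprime K Q hKNQ hKQcop, hKc, ← card_subgroupOf hQM, mul_comm, (Q.subgroupOf M).card_mul_index]
  -- step 4
  have hQsol : Group.IsSolvable Q := by
    haveI := hQp.isNilpotent
    infer_instance
  have hfrat : ∀ g : G, ∃ q ∈ Q, q⁻¹ * g ∈ Subgroup.normalizer (K : Set G) := by
    intro g
    have hB : MulAut.conj g • K ≤ K ⊔ Q := by
      rw [hKQ]
      intro x hx
      rw [mem_conj_smul] at hx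
      have := hMn.conj_mem _ (hKM hx) g
      have e1 : g * (g⁻¹ * x * g) * g⁻¹ = x := by group
      rwa [e1] at this
    obtain ⟨n, hn, hn2⟩ := coprime_conj Q K (MulAut.conj g • K) hKNQ hKQcop (Or.inr hQsol) hB (card_conj_smul g K)
    refine ⟨n, hn, ?_⟩
    apply mem_normalizer_of_conj_smul_eq
    rw [← conj_smul_smul, ← hn2, conj_smul_smul, inv_mul_cancel, map_one, one_smul]
  -- step 5
  have hPK : (P : Subgroup G) ≤ Subgroup.normalizer (K : Set G) := by
    have h1 := hfr ((P : Subgroup G) ⊓ Subgroup.normalizer (K : Set G)) inf_le_left (by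
      apply le_antisymm (sup_le hQP inf_le_left)
      intro u hu
      obtain ⟨q, hq, hq2⟩ := hfrat u
      have h2 : q⁻¹ * u ∈ (P : Subgroup G) ⊓ Subgroup.normalizer (K : Set G) :=
        ⟨(P : Subgroup G).mul_mem ((P : Subgroup G).inv_mem (hQP hq)) hu, hq2⟩
      have h3 : u = q * (q⁻¹ * u) := by group
      rw [h3]
      exact Subgroup.mul_mem _ ((le_sup_left : Q ≤ _) hq) ((le_sup_right : _ ≤ Q ⊔ _) h2))
    rw [← h1]; exact inf_le_right
  -- step 6
  have hdisj : K ⊓ Q = ⊥ := Subgroup.inf_eq_bot_of_coprime hKQcop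
  have hcomm : ∀ k ∈ K, ∀ q ∈ Q, k * q = q * k := by
    intro k hk q hq
    have h1 : k * q * k⁻¹ * q⁻¹ ∈ K ⊓ Q := by
      constructor
      · have h2 := (Subgroup.mem_normalizer_iff.mp (hPK (hQP hq)) k⁻¹).mp (K.inv_mem hk)
        have := K.mul_mem hk h2
        have e1 : k * (q * k⁻¹ * q⁻¹) = k * q * k⁻¹ * q⁻¹ := by group
        rwa [e1] at this
      · exact Q.mul_mem (hQn.conj_mem q hq k) (Q.inv_mem hq)
    rw [hdisj, Subgroup.mem_bot] at h1
    calc k * q = (k * q * k⁻¹ * q⁻¹) * (q * k) := by group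
      _ = q * k := by rw [h1, one_mul]
  -- step 7
  have hRK : R ≤ K := by
    rw [hR, pResidual, Subgroup.closure_le]
    intro y hy
    have hyM : y ∈ K ⊔ Q := by
      rw [hKQ]
      exact (le_sup_left : R ≤ M) (Subgroup.subset_closure hy)
    obtain ⟨k, hk, q, hq, rfl⟩ := Subgroup.mem_sup_of_normal_right.mp hyM
    have hkq : Commute k q := hcomm k hk q hq
    have h1 : q ^ (orderOf (k * q) * Nat.card K) = 1 := by
      have h2 : (k * q) ^ (orderOf (k * q) * Nat.card K) = 1 := by
        rw [pow_mul, pow_orderOf_eq_one, one_pow]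
      rw [hkq.mul_pow] at h2
      have h3 : k ^ (orderOf (k * q) * Nat.card K) = 1 := by
        rw [mul_comm, pow_mul]
        have : k ^ Nat.card K = 1 := by
          have := pow_card_eq_one' (G := K) (x := ⟨k, hk⟩)
          exact congrArg Subtype.val this
        rw [this, one_pow]
      rwa [h3, one_mul] at h2
    obtain ⟨j, hj⟩ := hQp ⟨q, hq⟩
    have hj' : q ^ (p ^ j) = 1 := by
      have := congrArg Subtype.val hj
      simpa using this
    have hcop2 : (orderOf (k * q) * Nat.card K).Coprime (p ^ j) :=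
      Nat.Coprime.pow_right j (Nat.Coprime.mul_left hy hKp)
    have h4 : orderOf q ∣ 1 := by
      rw [← Nat.coprime_iff_gcd_eq_one.mp hcop2]
      exact Nat.dvd_gcd (orderOf_dvd_of_pow_eq_one h1) (orderOf_dvd_of_pow_eq_one hj')
    have h5 : q = 1 := orderOf_eq_one_iff.mp (Nat.dvd_one.mp h4)
    rw [h5, mul_one]
    exact hk
  exact Nat.Coprime.coprime_dvd_left (Subgroup.card_dvd_of_le hRK) hKp

end Cfsg.Agent.Lib.Helper1.PNilFrat
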