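import Cfsg.Agent.Lib.Helper1.AlperinTame
import Cfsg.Prelude.Def_ConjugacyFunctors

set_option autoImplicit false

namespace Cfsg.Agent.Lib.Helper1

open scoped Pointwise

theorem exists_fully_normalized' {G : Type*} [Group G] [Finite G] {p : ℕ} [hp : Fact p.Prime] (P : Sylow p G) (T : Subgroup G)
    (hT : T ≤ (P : Subgroup G)) :
    ∃ a : G, MulAut.conj a • T ≤ (P : Subgroup G) ∧
      Nat.card ((P : Subgroup G) ⊓ Subgroup.normalizer ((MulAut.conj a • T : Subgroup G) : Set G) : Subgroup G) =
        p ^ (Nat.card (Subgroup.normalizer ((MulAut.conj a • T : Subgroup G) : Set G))).factorization p ∧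
      MulAut.conj a • ((P : Subgroup G) ⊓ Subgroup.normalizer (T : Set G)) ≤ (P : Subgroup G) := by
  obtain ⟨U, hUP, ⟨y, hy⟩, hUsyl⟩ := exists_fully_normalized P T hT
  set R := (P : Subgroup G) ⊓ Subgroup.normalizer (T : Set G) with hR
  have hR1 : MulAut.conj y • R ≤ Subgroup.normalizer (U : Set G) := by
    rw [← hy, ← conj_smul_normalizer]
    exact conj_smul_mono y inf_le_right
  have hRp : IsPGroup p (MulAut.conj y • R : Subgroup G) := by
    obtain ⟨k, hk⟩ := IsPGroup.iff_card.mp (P.2.to_le (inf_le_left : R ≤ P))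
    exact IsPGroup.of_card (n := k) (by rw [card_conj_smul, hk])
  obtain ⟨l, hl, hlR⟩ := sylow_dominance_in (Subgroup.normalizer (U : Set G))
    ((P : Subgroup G) ⊓ Subgroup.normalizer (U : Set G)) (MulAut.conj y • R) inf_le_right hR1 hUsyl hRp
  have hU : MulAut.conj (l⁻¹ * y) • T = U := by
    rw [← conj_smul_smul, hy]
    exact conj_smul_eq_of_mem_normalizer (Subgroup.inv_mem _ hl)
  refine ⟨l⁻¹ * y, by rw [hU]; exact hUP, by rw [hU]; exact hUsyl, ?_⟩
  rw [← conj_smul_smul]
  exact (conj_smul_le_iff.mpr (by rw [inv_inv]; exact hlR)).trans inf_le_left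

theorem eq_of_sylow_card_le {G : Type*} [Group G] [Finite G] {p : ℕ} [hp : Fact p.Prime] {R1 R2 N : Subgroup G}
    (h12 : R1 ≤ R2) (h2N : R2 ≤ N) (hc : Nat.card R1 = p ^ (Nat.card N).factorization p) (h2 : IsPGroup p R2) :
    R1 = R2 := by
  apply Subgroup.eq_of_le_of_card_ge h12
  obtain ⟨k, hk⟩ := IsPGroup.iff_card.mp h2
  rw [hc, hk]
  apply Nat.pow_le_pow_right hp.out.pos
  exact (hp.out.pow_dvd_iff_le_factorization Nat.card_pos.ne').mp (hk ▸ Subgroup.card_dvd_of_le h2N)

theorem tower_shift {G : Type*} [Group G] (W : Subgroup G → Subgroup G) (S X Y : Subgroup G)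
    (h : Cfsg.functorTower W S X 1 = Y) : ∀ i, Cfsg.functorTower W S X (i + 1) = Cfsg.functorTower W S Y i := by
  intro i
  induction i with
  | zero => exact h
  | succ i ih =>
    change W (S ⊓ Subgroup.normalizer ((Cfsg.functorTower W S X (i + 1) : Subgroup G) : Set G)) =
      W (S ⊓ Subgroup.normalizer ((Cfsg.functorTower W S Y i : Subgroup G) : Set G))
    rw [ih]

theorem exists_wellPlaced {G : Type*} [Group G] [Finite G] {p : ℕ} [hp : Fact p.Prime] (S : Sylow p G)
    (W : Subgroup G → Subgroup G) (hW : Cfsg.IsConjugacyFunctor p W) :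
    ∀ (n : ℕ) (T : Subgroup G), T ≤ (S : Subgroup G) →
      Nat.card (S : Subgroup G) - Nat.card ((S : Subgroup G) ⊓ Subgroup.normalizer (T : Set G) : Subgroup G) = n →
      ∃ g : G, Cfsg.IsWellPlaced p W (S : Subgroup G) (MulAut.conj g • T) ∧
        MulAut.conj g • ((S : Subgroup G) ⊓ Subgroup.normalizer (T : Set G)) ≤ (S : Subgroup G) := by
  have hWn : ∀ R : Subgroup G, IsPGroup p R →
      Subgroup.normalizer (R : Set G) ≤ Subgroup.normalizer ((W R : Subgroup G) : Set G) := by
    intro R hR g hg
    apply mem_normalizer_of_conj_smul_eq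
    have h1 := (hW R hR).2.2 g
    rw [map_conj_eq_smul, map_conj_eq_smul, conj_smul_eq_of_mem_normalizer hg] at h1
    exact h1.symm
  intro n
  induction n using Nat.strong_induction_on with
  | _ n ih =>
  intro T hT hn
  obtain ⟨a, hUS, hUsyl, haS⟩ := exists_fully_normalized' S T hT
  set U := MulAut.conj a • T with hU
  set R := (S : Subgroup G) ⊓ Subgroup.normalizer (U : Set G) with hR
  have hRp : IsPGroup p R := S.2.to_le inf_le_left
  have haR : MulAut.conj a • ((S : Subgroup G) ⊓ Subgroup.normalizer (T : Set G)) ≤ R := by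
    refine le_inf haS ?_
    rw [hU, ← conj_smul_normalizer]
    exact conj_smul_mono a inf_le_right
  rcases eq_or_lt_of_le (inf_le_left : R ≤ (S : Subgroup G)) with heq | hlt
  · refine ⟨a, ⟨hUS, ?_⟩, haS⟩
    have hall : ∀ i, (S : Subgroup G) ≤ Subgroup.normalizer ((Cfsg.functorTower W (S : Subgroup G) U i : Subgroup G) : Set G) := by
      intro i
      induction i with
      | zero => exact heq ▸ (inf_le_right : R ≤ _)
      | succ i ihi =>
        change (S : Subgroup G) ≤ Subgroup.normalizer ((W ((S : Subgroup G) ⊓ Subgroup.normalizer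
          ((Cfsg.functorTower W (S : Subgroup G) U i : Subgroup G) : Set G)) : Subgroup G) : Set G)
        rw [inf_of_le_left ihi]
        exact Subgroup.le_normalizer.trans (hWn _ S.2)
    intro i hd
    rw [inf_of_le_left (hall i)] at hd
    apply S.not_dvd_index
    rw [← Subgroup.relIndex_mul_index (hall i)]
    exact Dvd.dvd.mul_right hd _
  · set U1 := W R with hU1
    have hU1R : U1 ≤ R := (hW R hRp).1
    have hRN : R < (S : Subgroup G) ⊓ Subgroup.normalizer (R : Set G) := lt_inf_normalizer_of_lt S.2 hlt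
    have hRN1 : R < (S : Subgroup G) ⊓ Subgroup.normalizer (U1 : Set G) :=
      lt_of_lt_of_le hRN (inf_le_inf_left _ (hWn R hRp))
    have hc1 : Nat.card ((S : Subgroup G) ⊓ Subgroup.normalizer (T : Set G) : Subgroup G) ≤ Nat.card R := by
      rw [← card_conj_smul a]; exact Subgroup.card_le_of_le haR
    have hc2 := card_lt_of_lt hRN1
    have hc3 : Nat.card ((S : Subgroup G) ⊓ Subgroup.normalizer (U1 : Set G) : Subgroup G) ≤ Nat.card (S : Subgroup G) :=
      Subgroup.card_le_of_le inf_le_left
    obtain ⟨b, hbW, hbS⟩ := ih _ (by omega) U1 (hU1R.trans inf_le_left) rfl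
    have hbR : MulAut.conj b • R ≤ (S : Subgroup G) := (conj_smul_mono b hRN1.le).trans hbS
    have hUR : U ≤ R := le_inf hUS Subgroup.le_normalizer
    have hNX : MulAut.conj b • R = (S : Subgroup G) ⊓ Subgroup.normalizer ((MulAut.conj b • U : Subgroup G) : Set G) := by
      apply eq_of_sylow_card_le (N := Subgroup.normalizer ((MulAut.conj b • U : Subgroup G) : Set G))
        (le_inf hbR (by rw [← conj_smul_normalizer]; exact conj_smul_mono b inf_le_right)) inf_le_right
        (by rw [card_conj_smul, ← conj_smul_normalizer, card_conj_smul]; exact hUsyl) (S.2.to_le inf_le_left)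
    have ht1 : Cfsg.functorTower W (S : Subgroup G) (MulAut.conj b • U) 1 = MulAut.conj b • U1 := by
      change W ((S : Subgroup G) ⊓ Subgroup.normalizer ((MulAut.conj b • U : Subgroup G) : Set G)) = _
      rw [← hNX]
      exact (hW R hRp).2.2 b
    refine ⟨b * a, ?_, ?_⟩
    · rw [← conj_smul_smul]
      refine ⟨(conj_smul_mono b hUR).trans hbR, ?_⟩
      intro i
      cases i with
      | zero =>
        change ¬ p ∣ ((S : Subgroup G) ⊓ Subgroup.normalizer ((MulAut.conj b • U : Subgroup G) : Set G)).relIndex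
          (Subgroup.normalizer ((MulAut.conj b • U : Subgroup G) : Set G))
        apply not_dvd_relIndex_of_card_eq inf_le_right
        rw [← hNX, card_conj_smul, ← conj_smul_normalizer, card_conj_smul]
        exact hUsyl
      | succ i =>
        rw [tower_shift W _ _ _ ht1 i]
        exact hbW.2 i
    · rw [← conj_smul_smul]
      exact (conj_smul_mono b haR).trans hbR

end Cfsg.Agent.Lib.Helper1
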